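import Cfsg.Agent.Lib.TC.Data.Fi22b.Arr
import Cfsg.Agent.Lib.TC.Data.Fi22b.K0
import Cfsg.Agent.Lib.TC.Data.Fi22b.K1
import Cfsg.Agent.Lib.TC.Data.Fi22b.K2
import Cfsg.Agent.Lib.TC.Data.Fi22b.K3
import Cfsg.Agent.Lib.TC.Data.Fi22b.K4
import Cfsg.Agent.Lib.TC.Data.Fi22b.K5
import Cfsg.Agent.Lib.TC.Data.Fi22b.P0
import Cfsg.Agent.Lib.TC.Data.Fi22b.P1
import Cfsg.Agent.Lib.TC.Data.Fi22b.P2
import Cfsg.Agent.Lib.TC.Data.Fi22b.P3
import Cfsg.Agent.Lib.TC.Data.Fi22b.P4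
import Cfsg.Agent.Lib.TC.Data.Fi22b.P5
import Cfsg.Agent.Lib.TC.Data.Fi22b.P6
import Cfsg.Agent.Lib.TC.Data.Fi22b.P7
import Cfsg.Agent.Lib.TC.Data.Fi22b.P8
import Cfsg.Agent.Lib.TC.Data.Fi22b.P9
import Cfsg.Agent.Lib.TC.Data.Fi22b.P10
import Cfsg.Agent.Lib.TC.Data.Fi22b.P11
import Cfsg.Agent.Lib.TC.Data.Fi22b.P12
import Cfsg.Agent.Lib.TC.Data.Fi22b.P13
import Cfsg.Agent.Lib.TC.Data.Fi22b.P14
import Cfsg.Agent.Lib.TC.Data.Fi22b.P15
import Cfsg.Agent.Lib.TC.Data.Fi22b.P16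
import Cfsg.Agent.Lib.TC.Data.Fi22b.P17
import Cfsg.Agent.Lib.TC.Data.Fi22b.P18
import Cfsg.Agent.Lib.TC.Data.Fi22b.P19
import Cfsg.Agent.Lib.TC.Data.Fi22b.P20
import Cfsg.Agent.Lib.TC.Data.Fi22b.P21
import Cfsg.Agent.Lib.TC.Data.Fi22b.P22
import Cfsg.Agent.Lib.TC.Data.Fi22b.P23
import Cfsg.Agent.Lib.TC.Data.Fi22b.P24
import Cfsg.Agent.Lib.TC.Data.Fi22b.P25
import Cfsg.Agent.Lib.TC.Data.Fi22b.P26
import Cfsg.Agent.Lib.TC.Data.Fi22b.P27
import Cfsg.Agent.Lib.TC.Data.Fi22b.P28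
import Cfsg.Agent.Lib.TC.Data.Fi22b.P29

set_option autoImplicit false

namespace Cfsg.Agent.Lib.TC.Data.Fi22b

open Cfsg.Agent.Lib.TC

open Cfsg.Spor Cfsg.Spor.Fi22

theorem doneK : Done Fk 164096 := by
  have h0 := Done.zero Fk
  have h1 : Done Fk 27350 := Done.step h0 K0_ok rfl
  have h2 : Done Fk 54700 := Done.step h1 K1_ok rfl
  have h3 : Done Fk 82050 := Done.step h2 K2_ok rfl
  have h4 : Done Fk 109400 := Done.step h3 K3_ok rfl
  have h5 : Done Fk 136750 := Done.step h4 K4_ok rfl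
  have h6 : Done Fk 164096 := Done.step h5 K5_ok rfl
  exact h6

theorem doneP : Done Fp 14080 := by
  have h0 := Done.zero Fp
  have h1 : Done Fp 470 := Done.step h0 P0_ok rfl
  have h2 : Done Fp 940 := Done.step h1 P1_ok rfl
  have h3 : Done Fp 1410 := Done.step h2 P2_ok rfl
  have h4 : Done Fp 1880 := Done.step h3 P3_ok rfl
  have h5 : Done Fp 2350 := Done.step h4 P4_ok rfl
  have h6 : Done Fp 2820 := Done.step h5 P5_ok rfl
  have h7 : Done Fp 3290 := Done.step h6 P6_ok rfl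
  have h8 : Done Fp 3760 := Done.step h7 P7_ok rfl
  have h9 : Done Fp 4230 := Done.step h8 P8_ok rfl
  have h10 : Done Fp 4700 := Done.step h9 P9_ok rfl
  have h11 : Done Fp 5170 := Done.step h10 P10_ok rfl
  have h12 : Done Fp 5640 := Done.step h11 P11_ok rfl
  have h13 : Done Fp 6110 := Done.step h12 P12_ok rfl
  have h14 : Done Fp 6580 := Done.step h13 P13_ok rfl
  have h15 : Done Fp 7050 := Done.step h14 P14_ok rfl
  have h16 : Done Fp 7520 := Done.step h15 P15_ok rfl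
  have h17 : Done Fp 7990 := Done.step h16 P16_ok rfl
  have h18 : Done Fp 8460 := Done.step h17 P17_ok rfl
  have h19 : Done Fp 8930 := Done.step h18 P18_ok rfl
  have h20 : Done Fp 9400 := Done.step h19 P19_ok rfl
  have h21 : Done Fp 9870 := Done.step h20 P20_ok rfl
  have h22 : Done Fp 10340 := Done.step h21 P21_ok rfl
  have h23 : Done Fp 10810 := Done.step h22 P22_ok rfl
  have h24 : Done Fp 11280 := Done.step h23 P23_ok rfl
  have h25 : Done Fp 11750 := Done.step h24 P24_ok rfl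
  have h26 : Done Fp 12220 := Done.step h25 P25_ok rfl
  have h27 : Done Fp 12690 := Done.step h26 P26_ok rfl
  have h28 : Done Fp 13160 := Done.step h27 P27_ok rfl
  have h29 : Done Fp 13630 := Done.step h28 P28_ok rfl
  have h30 : Done Fp 14080 := Done.step h29 P29_ok rfl
  exact h30

def subsL : List (FreeGroup Gen) := [b,c,d,e,f,g,h,i]

theorem hsubs (s : FreeGroup Gen) : s ∈ ({b, c, d, e, f, g, h, i} : Set (FreeGroup Gen)) ↔ s ∈ subsL := by
  simp [subsL]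

theorem hsubW : subW = subsL.map (encW G.Fi22.sys.code G.Fi22.sys.inv) := by decide +kernel

noncomputable def A : SubWords G.Fi22.sys ({b, c, d, e, f, g, h, i} : Set (FreeGroup Gen)) :=
  G.Fi22.sys.subWordsOfList subsL subW hsubW hsubs

theorem hLL : ∀ w ∈ G.Fi22.relWords, w ∈ rR ∨ rotR w ∈ rR ∨ isPseudo 9 G.Fi22.inv w = true := by decide +kernel

theorem hrelW : ∀ w ∈ words.take 48, isPseudo 9 G.Fi22.inv w = true ∨ w ∈ G.Fi22.relWords := by decide +kernel

theorem hsubD : ∀ w ∈ words.drop 48, w ∈ subW := by decide +kernel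

theorem hlett : ∀ w ∈ words, ∀ g ∈ w, g < 10 := by decide +kernel

theorem hwlS : ∀ j, j < 8 → wordAt wordsL j ∈ subW := by decide +kernel

theorem hwlL : ∀ j, j < 17 → ∀ g ∈ wordAt wordsL j, g < 9 := by decide +kernel

theorem hzero : relsOk tT subW 0 = true := by decide +kernel

theorem hnm0 : aN 0 = 0 := by decide +kernel

noncomputable def checked : Sys.Checked G.Fi22.sys ({b, c, d, e, f, g, h, i} : Set (FreeGroup Gen)) cert where
  n := 14080
  T := tT
  R := rR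
  words := words
  nm := aN
  A := A
  WL := wordAt wordsL
  nsub := 8
  nW := 17
  par := par
  gw := gw
  ivs := ivs
  hF := doneP
  hn := by decide
  hL := fun r hr => hLL _ (G.Fi22.mem_relWords hr)
  hW := rfl
  hep := rfl
  hsz := rfl
  hnW := by decide +kernel
  hnrel := by decide +kernel
  hletters := hlett
  hrel := fun w hw => (hrelW w hw).imp id G.Fi22.of_mem_relWords
  hsub := hsubD
  hE := fun k hk => guard_zero 164096 _ k hk
  hcheck := doneK
  hnm0 := hnm0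
  hWLs := hwlS
  hWLl := hwlL
  h0 := hzero

end Cfsg.Agent.Lib.TC.Data.Fi22b
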